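import Cfsg.Agent.H50.Ux.Stmts
import Cfsg.Agent.H881.Bs.HermMinus

/-!
# UX (S5716), UT2, piece Ya2: hermitian forms (helper887)

**`ya2`** : `Ya0 → Ya2`: in a hermitian space of dimension `≥ 2 e + 6`, `e` odd, there is a nondegenerate subspace of dimension
`e` whose isometry group has enough irreducible elements with a large primitive part.
-/

set_option autoImplicit false
set_option linter.unusedSectionVars false

namespace Cfsg.Agent.H887.Ux

open Module Cfsg.Agent.H847.Bs Cfsg.Agent.H881.Bs Cfsg.Agent.H50.Ux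
open Cfsg.Agent.H141.Ux (Kl ParE Pp StE)

section sub

variable {F V : Type*} [Field F] [AddCommGroup V] [Module F V] [Finite F] [FiniteDimensional F V] {r : ℕ} {Φ : Frm F V}

/-- nondegenerate subspaces of all dimensions -/
theorem exists_nd_sub (hΦ : IsHerm r Φ) {e : ℕ} (he : e ≤ finrank F V) :
    ∃ E₀ : Submodule F V, Φ.NdOn E₀ ∧ finrank F E₀ = e := by
  obtain ⟨w, hw⟩ := exists_onf hΦ he
  refine ⟨Submodule.span F (Set.range w), ?_, ?_⟩
  · intro x hx h
    obtain ⟨c, rfl⟩ := (Submodule.mem_span_range_iff_exists_fun F).1 hx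
    refine Finset.sum_eq_zero fun i _ => ?_
    have h2 := h (w i) (Submodule.subset_span ⟨i, rfl⟩)
    rw [B_sum_left] at h2
    simp only [hw, mul_ite, mul_one, mul_zero, Finset.sum_ite_eq', Finset.mem_univ, if_true] at h2
    rw [h2, zero_smul]
  · have hli : LinearIndependent F w := by
      rw [Fintype.linearIndependent_iff]
      intro c h i
      have h2 : Φ.B (∑ l, c l • w l) (w i) = c i := by
        rw [B_sum_left]
        simp only [hw, mul_ite, mul_one, mul_zero, Finset.sum_ite_eq', Finset.mem_univ, if_true]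
      have h3 : Φ.B 0 (w i) = 0 := by
        have := Φ.smul_left 0 0 (w i)
        rwa [zero_smul, zero_mul] at this
      rw [← h2, h, h3]
    rw [finrank_span_eq_card hli, Fintype.card_fin]

theorem isHerm_on (hΦ : IsHerm r Φ) {E₀ : Submodule F V} (h : Φ.NdOn E₀) : IsHerm r (Φ.on E₀) where
  nd x hx := Subtype.ext (h x x.2 fun y hy => hx ⟨y, hy⟩)
  card := hΦ.card
  s := hΦ.s
  q x := hΦ.q x
  symm x y := hΦ.symm x y

end sub

section mu

variable {F V L : Type*} [Field F] [AddCommGroup V] [Module F V] [Field L] [Algebra F L]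

theorem mu_mul (e : V ≃ₗ[F] L) (s t : Lˣ) : mu e (s * t) = mu e s * mu e t := by
  apply LinearEquiv.ext
  intro v
  change mu e (s * t) v = mu e s (mu e t v)
  rw [mu_apply, mu_apply, e_mu, Units.val_mul, mul_assoc]

theorem orderOf_mu (e : V ≃ₗ[F] L) (t : Lˣ) : orderOf (mu e t) = orderOf t := by
  have h1 : ∀ n : ℕ, mu e (t ^ n) = mu e t ^ n := by
    intro n
    induction n with
    | zero =>
      rw [pow_zero, pow_zero]
      apply LinearEquiv.ext
      intro v
      rw [mu_apply, Units.val_one, one_mul, e.symm_apply_apply]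
      rfl
    | succ n ih => rw [pow_succ, pow_succ, mu_mul, ih]
  refine orderOf_eq_orderOf_iff.2 fun n => ?_
  rw [← h1]
  constructor
  · intro h
    apply mu_injective e
    rw [h, ← pow_zero (mu e t), ← h1, pow_zero]
  · intro h
    rw [h, ← pow_zero (mu e t), ← h1, pow_zero]

end mu

/-- an element of order divisible by a prime `s` with `ord_s(p) = e f` generates the field -/
theorem gen_of_prime {F L : Type*} [Field F] [Field L] [Algebra F L] [Finite L] {p f e s : ℕ} (hF : Nat.card F = p ^ f)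
    (hf : 1 ≤ f) (hL : finrank F L = e) (_hs : s.Prime) (hord : orderOf ((p : ℕ) : ZMod s) = e * f) {t : Lˣ}
    (ht : s ∣ orderOf t) : Gen F (t : L) := by
  by_contra h
  obtain ⟨k, hk, hk'⟩ := pow_eq_of_not_gen h
  rw [hL, Nat.mem_properDivisors] at hk
  have hFf : Finite F := Finite.of_injective _ (algebraMap F L).injective
  have h1 : 1 ≤ Nat.card F ^ k := Nat.one_le_pow _ _ Nat.card_pos
  have h2 : t ^ (Nat.card F ^ k - 1) = 1 := by
    have h3 : t ^ (Nat.card F ^ k - 1) * t = 1 * t := by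
      rw [← pow_succ, Nat.sub_add_cancel h1, one_mul]
      exact Units.ext (by rw [Units.val_pow_eq_pow_val, hk'])
    exact mul_right_cancel h3
  have h3 : s ∣ Nat.card F ^ k - 1 := ht.trans (orderOf_dvd_of_pow_eq_one h2)
  have h4 : ((p : ℕ) : ZMod s) ^ (f * k) = 1 := by
    rw [← ZMod.natCast_eq_zero_iff, Nat.cast_sub h1, Nat.cast_pow, hF, Nat.cast_pow, Nat.cast_one, sub_eq_zero,
      ← pow_mul] at h3
    exact h3
  have h5 : e * f ∣ f * k := by
    rw [← hord]
    exact orderOf_dvd_of_pow_eq_one h4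
  have h6 : e ∣ k := by
    rw [mul_comm] at h5
    exact Nat.dvd_of_mul_dvd_mul_left hf h5
  have h7 : 0 < k := by
    rcases Nat.eq_zero_or_pos k with h0 | h0
    · subst h0
      have := Nat.eq_zero_of_zero_dvd hk.1
      omega
    · exact h0
  have := Nat.le_of_dvd h7 h6
  omega

/-- **Ya2.** -/
theorem ya2 (hY : Ya0) : Ya2 := by
  intro F V _ _ _ _ _ Φ r p f e hΦ ho hp hpf he hn hbig
  obtain ⟨E₀, hE, hdim⟩ := exists_nd_sub hΦ (e := e) (by omega)
  refine ⟨E₀, hE, hdim, ?_⟩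
  have hΦ' := isHerm_on hΦ hE
  have hE0fin : Finite E₀ := Module.finite_of_finite F
  have hF := hΦ.card
  have hr := two_le_r hF
  have hpF : Fact p.Prime := ⟨hp⟩
  have hf : 1 ≤ f := by
    rcases Nat.eq_zero_or_pos f with h0 | h0
    · subst h0
      rw [pow_zero] at hpf
      have := Finite.one_lt_card (α := F)
      omega
    · exact h0
  -- the characteristic
  have := Fintype.ofFinite F
  obtain ⟨a, hpr, ha⟩ := FiniteField.card F (ringChar F)
  have hchar : ringChar F = p := by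
    have h1 : p ∣ ringChar F ^ (a : ℕ) := by
      rw [← ha, ← Nat.card_eq_fintype_card, hpf]
      exact dvd_pow_self p (by omega)
    exact ((Nat.prime_dvd_prime_iff_eq hp hpr).1 (hp.dvd_of_dvd_pow h1)).symm
  have hchar' : CharP F p := by rw [← hchar]; exact ringChar.charP F
  -- the field
  have he0 : NeZero e := ⟨by omega⟩
  have hL : finrank F (FiniteField.Extension F p e) = e := FiniteField.finrank_extension F p e
  set L := FiniteField.Extension F p e with hLdef
  have ho' : Odd (finrank F L) := by rw [hL]; exact ho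
  obtain ⟨ε, hε⟩ := exists_isom hΦ' (isHerm_minus (L := L) hF ho') (by rw [hdim, hL])
  have hcardL : Nat.card L = (p ^ f) ^ e := by
    rw [Module.natCard_eq_pow_finrank (K := F), hL, hpf]
  have hrr : (p ^ f) ^ e = r ^ (2 * e) := by rw [← hpf, hF, ← pow_mul]
  have hre : 1 ≤ r ^ e := Nat.one_le_pow _ _ (by omega)
  have hfac : r ^ (2 * e) - 1 = (r ^ e + 1) * (r ^ e - 1) := by
    rw [← Nat.sq_sub_sq, one_pow, ← pow_mul, mul_comm e 2]
  -- `r = p ^ j`, `f = 2 j`
  obtain ⟨j, hj⟩ : ∃ j, r = p ^ j := by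
    have h1 : r ∣ p ^ f := by rw [← hpf, hF, pow_two]; exact Dvd.intro _ rfl
    obtain ⟨j, -, hj⟩ := (Nat.dvd_prime_pow hp).1 h1
    exact ⟨j, hj⟩
  have hfj : f = 2 * j := by
    have h1 : p ^ f = p ^ (2 * j) := by rw [← hpf, hF, hj, ← pow_mul, mul_comm]
    exact Nat.pow_right_injective hp.two_le h1
  set S : Set Lˣ := {t | t ^ (r ^ e + 1) = 1 ∧ ∃ k, 2 * e + 1 < k ∧ k ∣ (p ^ f) ^ e - 1 ∧
    (∀ s : ℕ, s.Prime → s ∣ k → orderOf ((p : ℕ) : ZMod s) = e * f) ∧ k ∣ orderOf t} with hS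
  have h0 : 3 * (r ^ e + 1) ≤ 4 * Nat.card S := by
    refine hY L p f e (r ^ e + 1) hp hf (by omega) hcardL hbig ?_ ?_
    · rw [hrr, hfac]
      exact Dvd.intro _ rfl
    · intro s hs hord hdvd
      rw [hrr, hfac, Nat.mul_div_cancel_left _ (Nat.succ_pos _), hj, ← pow_mul] at hdvd
      have h1 : 1 ≤ p ^ (j * e) := Nat.one_le_pow _ _ hp.pos
      have h2 : ((p : ℕ) : ZMod s) ^ (j * e) = 1 := by
        rw [← ZMod.natCast_eq_zero_iff, Nat.cast_sub h1, Nat.cast_pow, Nat.cast_one, sub_eq_zero] at hdvd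
        exact hdvd
      have h3 := orderOf_dvd_of_pow_eq_one h2
      rw [hord] at h3
      have hj0 : 0 < j := by omega
      have h4 := Nat.le_of_dvd (Nat.mul_pos hj0 (by omega)) h3
      have h5 : e * f = 2 * (j * e) := by rw [hfj]; ring
      have h6 : 0 < j * e := Nat.mul_pos hj0 (by omega)
      omega
  have hgen : ∀ t ∈ S, Gen F (t : L) := by
    rintro t ⟨-, k, hk1, -, hk3, hk4⟩
    obtain ⟨s, hs, hsk⟩ := Nat.exists_prime_and_dvd (n := k) (by omega)
    exact gen_of_prime hpf hf hL hs (hk3 s hs hsk) (hsk.trans hk4)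
  have h1 := irr_count ε (Φ.on E₀).Iso S hgen
  have h2 : Nat.card {c : Lˣ // mu ε c ∈ (Φ.on E₀).Iso} = r ^ e + 1 := by
    have h3 := card_T (L := L) hF
    rw [hL] at h3
    rw [← h3]
    refine Nat.card_congr (Equiv.subtypeEquivRight fun t => ?_)
    rw [mu_mem_iff hF ho' hΦ' ε hε, hL]
  rw [h2, hdim] at h1
  have hGfin := finite_equiv' F E₀
  have h3 : Nat.card {z : E₀ ≃ₗ[F] E₀ // ∃ g ∈ (Φ.on E₀).Iso, ∃ t ∈ S, z = g * mu ε t * g⁻¹} ≤
      Nat.card {m : E₀ ≃ₗ[F] E₀ // m ∈ (Φ.on E₀).Iso ∧ m ∈ PI F E₀ e} := by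
    refine Nat.card_le_card_of_injective (fun z => (⟨z.1, ?_⟩ :
      {m : E₀ ≃ₗ[F] E₀ // m ∈ (Φ.on E₀).Iso ∧ m ∈ PI F E₀ e})) fun a b h => Subtype.ext (Subtype.mk.inj h)
    obtain ⟨g, hg, t, ht, hz⟩ := z.2
    have ht' : mu ε t ∈ (Φ.on E₀).Iso := by
      rw [mu_mem_iff hF ho' hΦ' ε hε, hL]
      exact ht.1
    rw [hz]
    refine ⟨(Φ.on E₀).Iso.mul_mem ((Φ.on E₀).Iso.mul_mem hg ht') ((Φ.on E₀).Iso.inv_mem hg),
      irr_conj (irr_mu ε (hgen t ht)), ?_⟩
    obtain ⟨-, k, hk1, hk2, hk3, hk4⟩ := ht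
    refine ⟨k, ⟨hk1, by rw [hpf]; exact hk2, fun s hs hsk f' hf' => ?_⟩, ?_⟩
    · rw [hchar] at hf' ⊢
      have : f' = f := Nat.pow_right_injective hp.two_le (hf'.symm.trans hpf)
      rw [this]
      exact hk3 s hs hsk
    · have h4 : orderOf (g * mu ε t * g⁻¹) = orderOf (mu ε t) := by
        have := (MulAut.conj g : (E₀ ≃ₗ[F] E₀) ≃* (E₀ ≃ₗ[F] E₀)).orderOf_eq (mu ε t)
        rwa [MulAut.conj_apply] at this
      rw [h4, orderOf_mu]
      exact hk4
  set N := Nat.card {m : E₀ ≃ₗ[F] E₀ // m ∈ (Φ.on E₀).Iso ∧ m ∈ PI F E₀ e} with hN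
  have h4 : Nat.card (Φ.on E₀).Iso * Nat.card S ≤ e * (r ^ e + 1) * N :=
    h1.trans (Nat.mul_le_mul_left _ h3)
  have h5 : Nat.card (Φ.on E₀).Iso * (r ^ e + 1) ≤ (4 * e * N) * (r ^ e + 1) := by
    calc Nat.card (Φ.on E₀).Iso * (r ^ e + 1) ≤ Nat.card (Φ.on E₀).Iso * (3 * (r ^ e + 1)) :=
          Nat.mul_le_mul_left _ (by omega)
      _ ≤ Nat.card (Φ.on E₀).Iso * (4 * Nat.card S) := Nat.mul_le_mul_left _ h0
      _ = 4 * (Nat.card (Φ.on E₀).Iso * Nat.card S) := by ring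
      _ ≤ 4 * (e * (r ^ e + 1) * N) := Nat.mul_le_mul_left _ h4
      _ = (4 * e * N) * (r ^ e + 1) := by ring
  exact Nat.le_of_mul_le_mul_right h5 (Nat.succ_pos _)

end Cfsg.Agent.H887.Ux
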