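import Cfsg.Agent.H156.Ppd.PPlus
import Cfsg.Agent.H948.Ux.NatE

/-!
# UN1e (S5716, unbounded rank): `PΩ⁺_{2l}(K)` in its own characteristic, exact outcome (helper887)

**`nate_pplus`** : `Row k m P`, `Soc P ≃ PΩ⁺_{2l}(K)`, `char K = char F`, `l ≥ 4` imply `NatE P`. (Proof: helper156's
`nat_pplus`.)
-/

set_option autoImplicit false
set_option linter.unusedSectionVars false

namespace Cfsg.Agent.H887.Ux

open Cfsg.Agent.H156.Ppd Cfsg.Agent.H156.Ppd.PPlus
open Cfsg.Agent.H948.Ux (NatE)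
open CoxeterSystem Cfsg.Agent.ChevalleyStructure.CoxeterGeom Cfsg.Agent.Tits.Roots Cfsg.Agent.Tits.Core
  Cfsg.Agent.Nodes.Reps Cfsg.Agent.Nodes.BNOf Cfsg.Agent.Nodes.Bruhat Cfsg.Agent.Nodes.RGDLib
open QuadraticMap
open Cfsg.Agent.LieClassical Cfsg.Agent.LieClassical.OrthCore Cfsg.Agent.LieClassical.OrthTrans
open Cfsg.Agent.LieClassical.OrthSimple Cfsg.Agent.LieClassical.OrthFinite Cfsg.Agent.LieClassical.OrthForms
open Cfsg.Agent.TitsThree Cfsg.Agent.TitsThree.KSideO Cfsg.Agent.TitsThree.StdData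
open Cfsg.Agent.Nodes Cfsg.Agent.Nodes.WittAll Cfsg.Agent.Nodes.WittInst Cfsg.Agent.Nodes.WittU
  Cfsg.Agent.TitsThree.Siegel Cfsg.Agent.TitsThree.SiegelGen
  Cfsg.Agent.TitsThree.WittFrame Cfsg.Agent.TitsThree.WBridge Cfsg.Agent.TitsThree.WittWeyl
  Cfsg.Agent.TitsThree.FrameCN
open Cfsg.Agent.Nodes.WittRoot (Mono)
open Cfsg.Agent.Nodes.WittRGD (Tor)
open Cfsg.Agent.H905.Md Cfsg.Agent.H915.LD Cfsg.Agent.H925.Nat Cfsg.Agent.H100.Ppd Cfsg.Agent.H911
open Cfsg.Agent.H67.Cross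
open Cfsg.Agent.KFacts.MulOdd.Inst (Lv)
open Cfsg.Agent.OddHalf.NI.Mult (up lo dg Coord)
open Cfsg Cfsg.Geo
open scoped MatrixGroups Matrix

universe u

/-- **The row.** -/
theorem nate_pplus {F : Type u} [Field F] [Finite F] {n k m : ℕ} {P : Subgroup (GL (Fin n) F)} (h : Row k m P)
    (hg : ∃ r, r.Prime ∧ r ∣ m ∧ r ∣ Nat.card (Soc P)) (p : ℕ) [hp : Fact p.Prime] [CharP F p]
    {K : Type} [Field K] [Fintype K] [CharP K p] {l : ℕ} (hl : 4 ≤ l)
    (e : Soc P ≃* POmega K (quadFormPlus l K)) : NatE P := by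
  classical
  obtain ⟨d, rfl⟩ : ∃ d, l = d + 2 := ⟨l - 2, by omega⟩
  have hC := h.core
  obtain ⟨r, hr, hrm, hrc⟩ := hg
  have hcard := S0293.result (F := K) rfl (d + 2) hl
  rw [Nat.card_congr e.toEquiv] at hrc
  have hG : Good (plusForm (d + 2) K) := by
    apply good_of_finite (nondeg_plusForm (d + 2) K)
    rw [Module.finrank_fintype_fun_eq_card, Fintype.card_sum, Fintype.card_fin]
    omega
  rw [← coe_plusForm] at e
  have hfin := hfin (K := K) d
  have hA := amb_plus (F := K) (d + 2)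
  have h0 := adm_plus (F := K) (d + 2)
  have hWf : Finite (TypeD.M d).Group := TypeD.finite_W (TypeD.M d).toCoxeterSystem
  have hR := rgd_restrict (rgdD hA h0 (TypeD.M d).toCoxeterSystem (p := p))
    (E (plusForm (d + 2) K)) (fun x _ => rgD_le _ hA x) (fun i => WittRGDD.nn_mem hA i)
  have hperf : commutator ↥(E (plusForm (d + 2) K)) = ⊤ := Five.commutator_top hG.E_perfect
  have hG1 : G1 (TypeD.M d).toCoxeterSystem (TypeD.isCartan d) (XX d K) = ⊤ := by
    have h1 := G1D_eq_top (wplus (d + 2) K) (MonoidHom.id (E (plusForm (d + 2) K))) Function.surjective_id h0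
      (TypeD.M d).toCoxeterSystem
    rw [← h1]
    congr 1
    funext x
    exact (Subgroup.map_id _).symm
  obtain ⟨Y, _, _, f, φ, n₁, C⟩ := H156.Ppd.exists_cov hC hR hG1 hperf (toPOmega_surjective hG) e
  have hpp : p.Prime := Fact.out
  have rk : ∀ i, ∀ r : ℕ, r.Prime → r ≠ p → NoCE p r ↥(Lv (XX d K) i) := fun i r hr hne => noCE hpp i hr hne
  have hT : ∀ s ∈ (TT d K).comap f, ∀ t ∈ (TT d K).comap f, s * t = t * s :=
    comap_comm C.ker C.cop C.surj hR rk C.gen TT_comm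
  obtain ⟨a, ha⟩ : ∃ a : ℕ+, Fintype.card K = p ^ (a : ℕ) := ⟨(FiniteField.card K p).choose, (FiniteField.card K p).choose_spec.2⟩
  have hpow : ∀ t ∈ (TT d K).comap f, t ^ p ^ (a : ℕ) = t :=
    comap_pow C.ker C.cop C.surj hR rk C.gen TT_comm (TT_pow fun x => by rw [← ha]; exact FiniteField.pow_card x)
  have hD := C.finrank_D hC hT
  obtain ⟨j, hj1, hj⟩ := C.exists_j hC hT a.pos.ne' hpow
  rw [← ha] at hj
  have hlt : n < 4 * (d + 1) * j := by
    rw [← hj] at hcard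
    exact plus_lt h.num hr hrm hl hj1 hcard hrc
  have hKc : Nat.card K = Nat.card F ^ j := by rw [hj, Nat.card_eq_fintype_card]
  have hIo : ∀ i, i ∉ Jx (TypeD.M d).toCoxeterSystem (TypeD.isCartan d) (fun x => Nodes.RGDLift.lft p f (XX d K x)) (lrep φ) →
      j ≤ Module.finrank F (Io (TypeD.M d).toCoxeterSystem (TypeD.isCartan d) ((TT d K).comap f)
        (fun x => Nodes.RGDLift.lft p f (XX d K x)) (lrep φ) i) + 1 := by
    intro i hi
    exact C.edge_Io hR hC hi hD (by rw [card_XX, hKc]) (ts i)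
  have hnV := C.nontriv hC
  have hdim : Module.finrank F (Fin n → F) = n := by rw [Module.finrank_fintype_fun_eq_card, Fintype.card_fin]
  by_cases hd4 : d = 2
  · exfalso
    subst hd4
    have h1 := dFour mAD4_eq C.rgd (C.hirr hC) C.gen (C.hnt hC) hD hIo (by rw [hdim]; exact hlt)
    rw [hdim] at h1
    have := h.num.ten
    omega
  · have hd3 : 3 ≤ d := by omega
    obtain ⟨hJ, hL⟩ := DSg.dAll C.rgd (C.hirr hC) hd3 C.gen (C.hnt hC) hD hIo (by rw [hdim]; exact hlt)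
    obtain ⟨σ, θ, hθ⟩ := C.ident hC (ψ := mt (E (plusForm (d + 2) K))) (o := (0 : Fin (d + 2)))
      (span_E hG (by rw [Fintype.card_sum, Fintype.card_fin]; omega))
      (natAt_D hA (by omega) rfl (TypeD.M d).toCoxeterSystem)
      (fixD (by omega) rfl (TypeD.M d).toCoxeterSystem) (surjD hA rfl) hR hJ hD hL
    obtain ⟨τ, rfl⟩ := ringEquiv_of_surj σ (identify_surj hC hθ)
    have hCj : CjOf (omegaGL (quadFormPlus (d + 2) F)) P := by
      refine cjOf_of (mem_omega_iff'' hG) (map_omega_glm τ fun v => ?_) hθ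
      rw [coe_plusForm]
      exact quadFormPlus_map τ v
    obtain ⟨Q₁, hQ₁, hP, -⟩ := hCj.omega_form (by
      rw [← coe_plusForm]
      exact H925.isND_of_nondeg (nondeg_plusForm (d + 2) F))
    refine Or.inr (Or.inr (Or.inr ⟨Q₁, hQ₁, fun x hx v => ?_, hP.ge⟩))
    rw [hP] at hx
    obtain ⟨y, -, rfl⟩ := hx
    exact y.2 v v

end Cfsg.Agent.H887.Ux
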